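import Cfsg.Agent.StdZ.HeL

/-! The covering group `4²·L₃(4)`: classes of automorphisms and normal forms. -/

set_option autoImplicit false
set_option maxRecDepth 100000
set_option synthInstance.maxSize 4000

namespace CF.Cv.Ev

open Subgroup CF.Schur CF.Comp CF.Recog CF.Recog.ON Function CF.StdZ CF.StdZ.On CF.StdZ.He F4 DihedralGroup

/-- coordinates of the centre -/
abbrev ZZ : Type := ZMod 4 × ZMod 4

/-- the outer automorphism group -/
abbrev DD : Type := DihedralGroup 6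

/-- a central element -/
noncomputable def zp (v : ZZ) : U := y 5 ^ v.1.val * y 6 ^ v.2.val

/-- its word -/
noncomputable def zw (v : ZZ) : List ℕ := wpow [11] v.1.val ++ wpow [13] v.2.val

theorem rz (v : ZZ) : Rp (zw v) (zp v) := (Rp.y5.pow _).mul (Rp.y6.pow _)

theorem zp_mem (v : ZZ) : zp v ∈ Z0 := ⟨_, _, rfl⟩

theorem zp_add (v w : ZZ) : zp (v + w) = zp v * zp w := by
  simp only [zp, Prod.fst_add, Prod.snd_add, ZMod.val_add]
  rw [← pow_eq_pow_mod _ c14, ← pow_eq_pow_mod _ c24, pow_add, pow_add, (c12.pow_pow _ _).mul_mul_mul_comm]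

theorem zp_zero : zp 0 = 1 := by simp [zp]

theorem zp_smul (n : ℕ) (v : ZZ) : zp (n • v) = zp v ^ n := by
  induction n with
  | zero => simp [zp_zero]
  | succ n ih => rw [succ_nsmul, zp_add, ih, pow_succ]

theorem zp_ex {a : U} (h : a ∈ Z0) : ∃ v, a = zp v := by
  obtain ⟨m, n, rfl⟩ := h
  refine ⟨(m, n), ?_⟩
  simp only [zp, ZMod.val_natCast]
  rw [← pow_eq_pow_mod _ c14, ← pow_eq_pow_mod _ c24]

theorem zp_inj {v w : ZZ} (h : zp v = zp w) : v = w := by_contra fun n =>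
  wfU.ne_of_sameW (k := 10) (by decide) ((by decide +kernel : ∀ v w : ZZ, v ≠ w →
    sameW NU 672 10 (zw v) (zw w) = false) v w n) ((rz v).symm.trans ((congrArg Subtype.val h).trans (rz w)))

/-- a rotation -/
def mr (v : ZZ) : ZZ := (v.2, 3 * v.1 + v.2)

/-- the action on the centre -/
def mz : DD → ZZ → ZZ
  | r n, v => mr^[n.val] v
  | sr n, v => (3 * (mr^[n.val] v).1 + (mr^[n.val] v).2, (mr^[n.val] v).2)

/-- the classes of the representatives -/
def og (n : Fin 12) : DD := [r 0, r 3, sr 0, sr 3, r 4, r 1, sr 2, sr 5, r 2, r 5, sr 4, sr 1].getD n 1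

/-- the automorphism acts on the centre like the class -/
def Zq (γ : MulAut U) (g : DD) : Prop := ∀ v, γ (zp v) = zp (mz g v)

theorem Zq.mul {γ δ : MulAut U} {g h : DD} (a : Zq γ g) (b : Zq δ h) : Zq (γ * δ) (g * h) := fun v => by
  rw [MulAut.mul_apply, b, a, (by decide +kernel : ∀ (g h : DD) v, mz (g * h) v = mz g (mz h v))]

theorem Zq.uniq {γ : MulAut U} {g h : DD} (a : Zq γ g) (b : Zq γ h) : g = h :=
  (by decide +kernel : ∀ g h : DD, mz g (1, 0) = mz h (1, 0) → mz g (0, 1) = mz h (0, 1) → g = h) g h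
    (zp_inj ((a _).symm.trans (b _))) (zp_inj ((a _).symm.trans (b _)))

theorem rα {u : List ℕ} {a : U} (s : List ℕ) (h : Rp u a) : Rp (subst NS s ++ (u ++ winv (subst NS s))) (α s a) := by
  rw [Rp, ev_append, ev_append, ev_winv, ← h, ← mul_assoc]; exact coe_α _ _

theorem zq_α (n : Fin 12) : Zq (α (AW.getD n [])) (og n) := fun v =>
  (rα _ (rz v)).eq (rz _) (by revert n v; decide +kernel)

theorem zq_conj (k : U) : Zq (MulAut.conj k) 1 := fun v => by
  rw [MulAut.conj_apply, (comm_Z (zp_mem v) k).eq, mul_inv_cancel_right]; rfl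

theorem aut_ext {γ δ : MulAut U} (h : ∀ a, q (γ a) = q (δ a)) : γ = δ :=
  MulEquiv.toMonoidHom_injective (eq_of_perfect (ξ := q) (fun _ m => Z0_le (q_one.1 m)) (MonoidHom.ext h) perfU)

theorem autU (γ : MulAut U) : ∃ (k : U) (n : Fin 12), γ = MulAut.conj k * α (AW.getD n []) := by
  obtain ⟨L, _, x, π, h, hs, hk, -, -⟩ := exists_pi0
  obtain ⟨δ, e⟩ := exists_induced hs (hk.trans cenZ.symm) γ
  obtain ⟨k, n, t⟩ := h.autU hs (hk.trans cenZ.symm) δ
  refine ⟨k, n, aut_ext fun a => q_eq.2 (hk.le ?_)⟩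
  rw [MonoidHom.mem_ker, map_mul, map_inv, inv_mul_eq_one]
  exact (e a).symm.trans (t a)

theorem zq_ex (γ : MulAut U) : ∃ g, Zq γ g := by
  obtain ⟨k, n, rfl⟩ := autU γ
  exact ⟨_, (zq_conj k).mul (zq_α n)⟩

/-- the class of an automorphism -/
noncomputable def cl : MulAut U →* DD := MonoidHom.mk' (fun γ => (zq_ex γ).choose) fun γ δ =>
  (zq_ex _).choose_spec.uniq ((zq_ex γ).choose_spec.mul (zq_ex δ).choose_spec)

theorem zq_cl (γ : MulAut U) : Zq γ (cl γ) := (zq_ex γ).choose_spec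

theorem cl_conj (k : U) : cl (MulAut.conj k) = 1 := (zq_cl _).uniq (zq_conj k)

theorem cl_α (n : Fin 12) : cl (α (AW.getD n [])) = og n := (zq_cl _).uniq (zq_α n)

theorem cl_one {γ : MulAut U} (h : cl γ = 1) : ∃ k, γ = MulAut.conj k := by
  obtain ⟨k, n, rfl⟩ := autU γ
  rw [map_mul, cl_conj, one_mul, cl_α] at h
  obtain rfl := (by decide : ∀ n, og n = 1 → n = 0) n h
  exact ⟨k, by simp [α, AW]⟩

theorem conj_q {a b : U} : MulAut.conj a = MulAut.conj b ↔ q a = q b := by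
  rw [q_eq, ← cenZ, ← inv_mul_eq_one, ← map_inv, ← map_mul, mem_center_iff, MulEquiv.ext_iff]
  exact forall_congr' fun x => by rw [MulAut.conj_apply, MulAut.one_apply, mul_inv_eq_iff_eq_mul, eq_comm]

/-- the label of an outer automorphism -/
def vb (c d : Bool) : V := (cond d 1 0, cond (xor c d) 1 0)

/-- an outer automorphism -/
noncomputable def B (c d : Bool) : MulAut U := β (vb c d)

/-- its class -/
def ov : Bool → Bool → DD
  | false, false => 1 | true, true => r 3 | true, false => sr 0 | false, true => sr 3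

/-- its action on the Sylow subgroup -/
def tb (c d : Bool) (a : PP) : PP := cond c (fld (cond d (gr a) a)) (cond d (gr a) a)

/-- together with a diagonal automorphism -/
def Th (l : F4) (c d : Bool) (a : PP) : PP := dl l (l * l) (tb c d a)

theorem cl_B (c d : Bool) : cl (B c d) = ov c d := by
  obtain ⟨n, e, f⟩ := (by decide +kernel : ∀ c d, ∃ n : Fin 12, W (vb c d) = AW.getD n [] ∧ og n = ov c d) c d
  rw [B, β, e, cl_α, f]

theorem BB (c d : Bool) : B c d * B c d = 1 := MulEquiv.ext (ββ _)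

/-- a diagonal automorphism -/
noncomputable def η : MulAut U := MulAut.conj (y 1) * α [2]

theorem cl_η : cl η = r 2 := by rw [η, map_mul, cl_conj, one_mul]; exact cl_α 8

/-- a preimage -/
noncomputable def up (p : PP) : U := ev y (PW0 p)

theorem nn_up (p : PP) : nn (up p) = φ0 p := (φ0_eq p).symm

theorem rup (p : PP) : Rp (PW0 p) (up p) := .ev _ (by revert p; decide +kernel)

/-- the automorphism acts on the Sylow subgroup in the given way -/
def Ph (γ : MulAut U) (θ : PP → PP) : Prop := ∀ a m, nn a = φ0 m → nn (γ a) = φ0 (θ m)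

theorem Ph.mul {γ δ : MulAut U} {θ ζ : PP → PP} (a : Ph γ θ) (b : Ph δ ζ) : Ph (γ * δ) (θ ∘ ζ) :=
  fun _ _ e => a _ _ (b _ _ e)

theorem ph_B (c d : Bool) : Ph (B c d) (tb c d) := fun a m e => by
  rw [← ab_nn, e]
  cases c <;> cases d
  exacts [bb_zero _, b11 _, b01 _, b10 _]

theorem ph_conj (p : PP) : Ph (MulAut.conj (up p)) fun m => p * m * p⁻¹ := fun a m e => by
  simp only [MulAut.conj_apply, map_mul, map_inv, e, nn_up]

theorem ph_y1 : Ph (MulAut.conj (y 1)) (dl w w) := fun a m e => by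
  rw [MulAut.conj_apply, map_mul, map_mul, map_inv, e, ← h0_φ, ← ev_single y 1]; rfl

theorem ph_η : Ph η (dl w b) := fun a m e => by
  exact (ph_y1.mul (δ := α [2]) (ζ := dl i w) (fun a m e => by
    rw [← ab_nn, e]; exact act_φ (s := [2]) (by decide +kernel) m) a m e).trans
      (congrArg φ0 ((by decide +kernel : ∀ m, dl w w (dl i w m) = dl w b m) m))

/-- the powers of a primitive element -/
def lw (j : ℕ) : F4 := [i, w, b].getD j i

theorem ph_pow {j : ℕ} (h : j < 3) : Ph (η ^ j) (dl (lw j) (lw j * lw j)) := fun a m e => by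
  obtain rfl | rfl | rfl : j = 0 ∨ j = 1 ∨ j = 2 := by omega
  · exact e.trans (congrArg φ0 ((by decide +kernel : ∀ m, m = dl i i m) m))
  · exact pow_one η ▸ ph_η a m e
  · exact (sq η ▸ ph_η.mul ph_η a m e).trans (congrArg φ0 ((by decide +kernel : ∀ m, dl w b (dl w b m) = dl b w m) m))

theorem q_nn {a : U} {p m : PP} (e : nn a = φ0 p) {c : U} (f : nn c = φ0 m) : q a = q c ↔ p⁻¹ * m ∈ VP := by
  rw [← qc_nn, e, f, qc_φ]

theorem Ph.fix {γ : MulAut U} {θ : PP → PP} (a : Ph γ θ) (h : θ (uu i) = uu i) : q (γ uU) = q uU :=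
  (q_nn (a _ _ φu.symm) φu.symm).2 (by rw [h, inv_mul_cancel]; exact one_mem _)

/-- the automorphisms which fix the involution modulo the centre -/
def Fx : Subgroup (MulAut U) where
  carrier := {γ | q (γ uU) = q uU}
  one_mem' := rfl
  mul_mem' {γ δ} a b := (q_aut γ b).trans a
  inv_mem' {γ} a := by simpa using (q_aut γ⁻¹ a).symm

theorem fx_B (c d : Bool) : B c d ∈ Fx := (ph_B c d).fix (by revert c d; decide)

theorem fx_η : η ∈ Fx := ph_η.fix (by decide)

theorem fx_up (p : PP) : MulAut.conj (up p) ∈ Fx := (ph_conj p).fix (by revert p; decide +kernel)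

theorem fx_dec {γ : MulAut U} (a : γ ∈ Fx) (h : cl γ = 1) : ∃ p, γ = MulAut.conj (up p) := by
  obtain ⟨k, rfl⟩ := cl_one h
  obtain ⟨p, e⟩ := cenu (k := nn k) (by rw [φu, ← map_inv, ← map_mul, ← map_mul, qc_nn]; exact a)
  exact ⟨p, conj_q.2 ((q_nn e.symm (nn_up p)).2 (by simp))⟩

theorem actT {γ : MulAut U} (a : γ ∈ Fx) : ∃ p l c d, l ≠ o ∧ Ph γ (fun m => p * Th l c d m * p⁻¹) ∧
    (l = i → c = false → d = false → γ = MulAut.conj (up p)) := by
  obtain ⟨j, hj, c, d, e⟩ := (by decide : ∀ g : DD, ∃ j < 3, ∃ c d, g * (r 2 ^ j * ov c d)⁻¹ = 1) (cl γ)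
  obtain ⟨p, f⟩ := fx_dec (mul_mem a (inv_mem (mul_mem (pow_mem fx_η j) (fx_B c d))))
    (by rw [map_mul, map_inv, map_mul, map_pow, cl_η, cl_B, e])
  rw [mul_inv_eq_iff_eq_mul] at f
  refine ⟨p, lw j, c, d, (by decide : ∀ j < 3, lw j ≠ o) j hj, f ▸ (ph_conj p).mul ((ph_pow hj).mul (ph_B c d)), ?_⟩
  rintro t rfl rfl
  obtain rfl := (by decide : ∀ j < 3, lw j = i → j = 0) j hj t
  rw [f, pow_zero, one_mul, B, show vb false false = 0 from rfl, β_zero, mul_one]

theorem nf_aux {k s : U} {c d : Bool} (h : q k = q (s * (B c d s)⁻¹)) :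
    (MulAut.conj s)⁻¹ * (MulAut.conj k * B c d) * MulAut.conj s = B c d := by
  rw [conj_q.2 h]
  ext a : 1
  simp only [MulAut.mul_apply, MulAut.conj_apply, MulAut.conj_inv_apply, map_mul, map_inv]
  group

theorem nf_sq {k : U} {c d : Bool} (h : MulAut.conj k * B c d * (MulAut.conj k * B c d) = 1) : k * B c d k ∈ Z0 := by
  refine q_one.1 ((conj_q.1 ?_).trans (map_one q))
  rw [map_one, ← h]
  ext a : 1
  have := ββ (vb c d) a
  simp only [MulAut.mul_apply, MulAut.conj_apply, map_mul, map_inv, B, this, mul_assoc, mul_inv_rev]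

theorem nf {γ : MulAut U} (h : γ * γ = 1) {j : ℕ} {c d : Bool} (n : (c || d) = true)
    (e : (r 2 ^ j)⁻¹ * cl γ * r 2 ^ j * (ov c d)⁻¹ = 1) : ∃ δ, δ⁻¹ * γ * δ = B c d ∧ (γ ∈ Fx → δ ∈ Fx) := by
  have e : cl ((η ^ j)⁻¹ * γ * η ^ j * (B c d)⁻¹) = 1 := by
    simpa only [map_mul, map_inv, map_pow, cl_η, cl_B] using e
  have s : (η ^ j)⁻¹ * γ * η ^ j * ((η ^ j)⁻¹ * γ * η ^ j) = 1 := by
    calc _ = (η ^ j)⁻¹ * (γ * γ) * η ^ j := by group
      _ = _ := by rw [h]; group
  have K : ∀ {k t : U}, (η ^ j)⁻¹ * γ * η ^ j = MulAut.conj k * B c d → q k = q (t * (B c d t)⁻¹) →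
      (η ^ j * MulAut.conj t)⁻¹ * γ * (η ^ j * MulAut.conj t) = B c d := fun f g => by
    rw [← nf_aux g, ← f]; group
  by_cases a : γ ∈ Fx
  · have m := pow_mem fx_η j
    obtain ⟨p, f⟩ := fx_dec (mul_mem (mul_mem (mul_mem (inv_mem m) a) m) (inv_mem (fx_B c d))) e
    rw [mul_inv_eq_iff_eq_mul] at f
    have := nn_cen.2 (nf_sq (f ▸ s))
    rw [map_mul, ph_B c d _ _ (nn_up p), nn_up, ← map_mul, φcen] at this
    obtain ⟨x, t, u, g⟩ := (by decide +kernel : ∀ c d, (c || d) = true → ∀ p : PP, p * tb c d p ∈ VP → ∃ x t u,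
      p⁻¹ * (⟨x, t, u, o⟩ * (tb c d ⟨x, t, u, o⟩)⁻¹) ∈ VP) c d n p this
    exact ⟨_, K f ((q_nn (nn_up p) (by rw [map_mul, map_inv, map_mul, map_inv, ph_B c d _ _ (nn_up _), nn_up])).2 g),
      fun _ => mul_mem m (fx_up _)⟩
  · obtain ⟨k, f⟩ := cl_one e
    rw [mul_inv_eq_iff_eq_mul] at f
    obtain ⟨t, g⟩ := red (v := vb c d) ((by decide : ∀ c d, (c || d) = true → vb c d ≠ 0) c d n) (nf_sq (f ▸ s))
    exact ⟨_, K f g, fun x => absurd x a⟩

end CF.Cv.Ev
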