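import Cfsg.Agent.Cv.EA

/-! The covering group `4²·L₃(4)`: checked relations. -/

set_option autoImplicit false
set_option maxRecDepth 100000
set_option synthInstance.maxSize 4000

namespace CF.Cv.Ev

open Subgroup CF.Schur CF.Comp CF.Recog CF.Recog.ON Function CF.StdZ CF.StdZ.On CF.StdZ.He F4 DihedralGroup

/-- the word of the involution -/
noncomputable def uw : List ℕ := subst TS uT

/-- an element which commutes with a given involution -/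
def mf (p : PP) (s : F4) : PP :=
  if p.x ≠ o then ⟨s * s, o, s * s * p.u * (p.x * p.x), o⟩ else if p.y ≠ o then ⟨o, s, s * p.u * (p.y * p.y), o⟩
  else ⟨s * s * (i + p.u), p.u * (s * s * (i + p.u) * (s * s * (i + p.u))), o, o⟩

/-- the squares of the central generators -/
def ze : F4 → ZZ
  | w => (0, 2) | _ => (2, 0)

theorem gen_in (M : Subgroup U) {p : PP} (h : ∀ a, Commute a (up p) → a ∈ M) (h1 : p * p ∈ VP) (h2 : p ∉ VP)
    (h3 : p * uu i ∉ VP) {s : F4} (hs : s ∈ [i, w]) : ∃ a ∈ M, a * uU * a⁻¹ = uU * zp (ze s) := by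
  obtain ⟨x, t, u, v⟩ := p
  obtain ⟨a, c⟩ := (by decide +kernel : ∀ x t u : F4, x * t = o → ¬ (x = o ∧ t = o ∧ (u = o ∨ u = i)) →
    ∀ s ∈ [i, w], sameW NU 672 10 (PW0 (mf ⟨x, t, u, o⟩ s) ++ PW0 ⟨x, t, u, o⟩)
      (PW0 ⟨x, t, u, o⟩ ++ PW0 (mf ⟨x, t, u, o⟩ s)) = true ∧ sameW NU 672 10
      (PW0 (mf ⟨x, t, u, o⟩ s) ++ uw ++ winv (PW0 (mf ⟨x, t, u, o⟩ s))) (uw ++ zw (ze s)) = true) x t u
    ((by decide +kernel : ∀ p : PP, p * p ∈ VP → p.x * p.y = o) _ h1) ((by decide +kernel : ∀ p : PP, p ∉ VP →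
      p * uu i ∉ VP → ¬ (p.x = o ∧ p.y = o ∧ (p.u = o ∨ p.u = i))) _ h2 h3) s hs
  refine ⟨_, h _ ?_, (((rup _).mul .uu).mul (rup _).inv).eq (Rp.uu.mul (rz _)) c⟩
  have e := conj_q.2 ((q_nn (nn_up ⟨x, t, u, v⟩) (nn_up ⟨x, t, u, o⟩)).2 ((by decide +kernel : ∀ p : PP,
    p⁻¹ * ⟨p.x, p.y, p.u, o⟩ ∈ VP) ⟨x, t, u, v⟩))
  have := ((rup _).mul (rup _)).eq ((rup _).mul (rup _)) a
  exact (mul_inv_eq_iff_eq_mul.1 ((DFunLike.congr_fun e _).trans (mul_inv_eq_iff_eq_mul.2 this.symm))).symm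

/-- elements which commute with the involution -/
def T0 : List (List ℕ) := [PW0 ⟨i, i, o, o⟩, PW0 ⟨w, b, o, o⟩, PW0 ⟨b, w, o, o⟩, PW0 (uu w), PW0 (uu b)]

/-- elements fixed by an outer automorphism -/
def XF : Bool → Bool → List (List ℕ)
  | true, true => [[3, 7, 5, 9, 19, 7, 13]] | true, false => [[7, 3], PW0 (fx i)] | _, _ => [[3]]

/-- products of these elements -/
def WF : Bool → Bool → F4 → List ℕ
  | true, true, w => [11, 7, 11, 1, 11, 3, 11, 7, 11] | true, true, _ => [11, 1, 11, 1, 11, 1, 12, 1, 11]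
  | true, false, w => [11, 9, 12] | true, false, _ => [13]
  | _, _, w => [11, 5, 12] | _, _, _ => [11, 1, 12]

theorem gen_out (M : Subgroup U) (h0 : ∀ a, Commute a uU → a ∈ M) {c d : Bool} (n : (c || d) = true)
    (h : ∀ a, B c d a = a → a ∈ M) {s : F4} (hs : s ∈ [i, w]) : ∃ a ∈ M, a * uU * a⁻¹ = uU * zp (ze s) := by
  obtain ⟨a, e, f⟩ := (by decide +kernel : ∀ c d, (c || d) = true → (∀ v ∈ XF c d, lettersLe 11 [v] = true ∧
    sameW NU 672 10 (aW (vb c d) v) v = true) ∧ ∀ s ∈ [i, w], lettersLe 11 [subst (T0 ++ XF c d) (WF c d s)] = true ∧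
      sameW NU 672 10 (subst (T0 ++ XF c d) (WF c d s) ++ uw ++ winv (subst (T0 ++ XF c d) (WF c d s)))
      (uw ++ zw (ze s)) = true) c d n |>.imp_right (· s hs)
  have r := Rp.ev _ e
  refine ⟨_, (clo_le.2 fun v hv => ?_ : _ ≤ M) (ev_subst_mem_clo y _ _), ((r.mul .uu).mul r.inv).eq (Rp.uu.mul (rz _)) f⟩
  rcases List.mem_append.1 hv with m | m
  · obtain ⟨k, l⟩ := (by decide +kernel : ∀ v ∈ T0, lettersLe 11 [v] = true ∧
      sameW NU 672 10 (v ++ uw) (uw ++ v) = true) v m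
    exact h0 _ (((Rp.ev _ k).mul .uu).eq (Rp.uu.mul (.ev _ k)) l)
  · exact h _ (((Rp.ev _ (a v m).1).al _).eq (.ev _ (a v m).1) (a v m).2)

theorem grT : ∃ a s h : U, a * (B false true a)⁻¹ = s ∧ s * s = 1 ∧ s ∉ Z0 ∧ B false true h = h ∧
    s * (h * s * h⁻¹) * (h * (h * s * h⁻¹) * h⁻¹) = 1 :=
  have a := Rp.ev (PW0 ⟨w, w, o, o⟩ ++ [14])
  have s := rup (uu b)
  have k := (Rp.y1.mul s).mul Rp.y1.inv
  ⟨_, _, y 1, (a.mul (a.al _).inv).eq s, (s.mul s).eq .one, fun m => s.qne .one (by decide +kernel)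
    ((q_one.2 m).trans (map_one q).symm), β7, ((s.mul k).mul ((Rp.y1.mul k).mul Rp.y1.inv)).eq .one⟩

/-- a commutator with the automorphism is nearly the square of a nearly fixed element -/
def SqD (γ : MulAut U) (v1 v2 v3 : ZZ) : Prop := ∃ a c : U, c⁻¹ * γ c = zp v1 ∧
  (a * (γ a)⁻¹)⁻¹ * (c * c) = zp v2 ∧ a * (γ a)⁻¹ * (a * (γ a)⁻¹) = zp v3 ∧ a * (γ a)⁻¹ ∉ Z0

/-- the test -/
noncomputable def sqT (v : V) (a c : List ℕ) (v1 v2 v3 : ZZ) : Bool :=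
  lettersLe 11 [a] && lettersLe 11 [c] && sameW NU 672 10 (winv c ++ aW v c) (zw v1) &&
    sameW NU 672 10 (winv (a ++ winv (aW v a)) ++ (c ++ c)) (zw v2) &&
    sameW NU 672 10 (a ++ winv (aW v a) ++ (a ++ winv (aW v a))) (zw v3) && nq (a ++ winv (aW v a)) []

theorem sqD {v : V} {a c : List ℕ} {v1 v2 v3 : ZZ} (h : sqT v a c v1 v2 v3 = true) : SqD (β v) v1 v2 v3 := by
  simp only [sqT, Bool.and_eq_true] at h
  obtain ⟨⟨⟨⟨⟨h1, h2⟩, h3⟩, h4⟩, h5⟩, h6⟩ := h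
  have a := Rp.ev _ h1
  have c := Rp.ev _ h2
  have s := a.mul (a.al v).inv
  exact ⟨_, _, (c.inv.mul (c.al v)).eq (rz _) h3, (s.inv.mul (c.mul c)).eq (rz _) h4, (s.mul s).eq (rz _) h5,
    fun m => s.qne .one h6 ((q_one.2 m).trans (map_one q).symm)⟩

/-- nearly fixed elements -/
def CG (v : ZZ) : List ℕ :=
  if v.2 = 0 then PW0 ⟨i, i, b, w⟩ else if v.2 = 2 then PW0 ⟨i, i, b, o⟩ else if v.1 = 0 then PW0 ⟨b, w, b, i⟩
  else if v.1 = 2 then PW0 ⟨b, w, b, o⟩ else if v.1 = v.2 then PW0 ⟨w, b, b, w⟩ else PW0 ⟨w, b, b, o⟩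

theorem gfT {v : ZZ} (h : 2 • v ≠ 0) : ∃ n : ℕ, SqD (B true true) (n • v) (n • v) 0 := by
  obtain ⟨n, -, e⟩ := (by decide +kernel : ∀ v : ZZ, 2 • v ≠ 0 → ∃ n ∈ [1, 3],
    sqT (vb true true) (PW0 (uu w)) (CG v) (n • v) (n • v) 0 = true) v h
  exact ⟨n, sqD e⟩

theorem fT1 : SqD (B true false) 0 (0, 2) (2, 0) :=
  sqD (a := PW0 ⟨o, o, w, w⟩) (c := PW0 ⟨i, i, o, o⟩) (by decide +kernel)

theorem fT2 : SqD (B true false) 0 (1, 2) 0 :=
  sqD (a := PW0 (uu w) ++ [13, 13]) (c := PW0 ⟨i, i, o, o⟩) (by decide +kernel)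

theorem B_zp (c d : Bool) (v : ZZ) : B c d (zp v) = zp (mz (ov c d) v) := cl_B c d ▸ zq_cl _ v

end CF.Cv.Ev
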